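import Cfsg.Agent.Inv.ZStarCor
import Cfsg.Agent.Inv.Count
import Cfsg.Agent.Solv.CoprimeSylow
import Cfsg.Agent.Solv.Frobenius
import Cfsg.Agent.Grp.CardProduct
import Cfsg.Agent.Grp.ConjCount
import Cfsg.Agent.Grp.SelfCentPrime

/-! Group theory for the local analysis at large primes. -/

set_option autoImplicit false

namespace Cfsg.Agent.J4.L11

open Subgroup

variable {G : Type*} [Group G] [Finite G]

theorem card_mod {p : ℕ} (hp : p.Prime) {x : G} (hx : orderOf x = p) {S : Subgroup G}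
    (hn : x ∈ normalizer (S : Set G)) :
    Nat.card S ≡ Nat.card (S ⊓ centralizer {x} : Subgroup G) [MOD p] := by
  have := Fact.mk hp
  have h := Grp.ConjCount.card_modEq (Grp.SelfCent.isPGroup_zp hx) (S : Set G)
    fun g hg s hs => (mem_normalizer_iff.1 (zpowers_le.2 hn hg) s).1 hs
  rw [Small.centralizer_zpowers] at h
  exact h

theorem card_diff {S T : Subgroup G} (h : T ≤ S) :
    Nat.card ((S : Set G) \ T : Set G) = Nat.card S - Nat.card T := by
  rw [Nat.card_coe_set_eq, Set.ncard_sdiff h, ← Nat.card_coe_set_eq, ← Nat.card_coe_set_eq]; rfl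

/-- A semiregular action on the complement of a subgroup. -/
theorem dvd_sub {A S T : Subgroup G} (hTS : T ≤ S) (hS : A ≤ normalizer (S : Set G))
    (hT : A ≤ normalizer (T : Set G))
    (hf : ∀ a ∈ A, ∀ s ∈ S, a * s * a⁻¹ = s → a = 1 ∨ s ∈ T) :
    Nat.card A ∣ Nat.card S - Nat.card T := by
  rw [← card_diff hTS]
  exact Solv.Frob.card_dvd_of_conj_free A _
    (fun a ha s hs => ⟨(mem_normalizer_iff.1 (hS ha) s).1 hs.1,
      fun h => hs.2 ((mem_normalizer_iff.1 (hT ha) s).2 h)⟩)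
    fun a ha s hs h => (hf a ha s hs.1 h).resolve_right hs.2

theorem exists_inv_sylow {A K : Subgroup G} (hAK : A ≤ normalizer (K : Set G))
    (hc : (Nat.card A).Coprime (Nat.card K)) (hA : Group.IsSolvable A) {q : ℕ} (hq : q.Prime) :
    ∃ S ≤ K, Nat.card S = q ^ (Nat.card K).factorization q ∧ A ≤ normalizer (S : Set G) := by
  have := Fact.mk hq
  obtain ⟨P, hP⟩ := Solv.exists_invariant_sylow A K hAK hc (Or.inl hA) q
  exact ⟨_, map_subtype_le _, by rw [card_subtype, P.card_eq_multiplicity], hP⟩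

theorem pow_factorization_eq {n m q : ℕ} (hq : q.Prime) (h1 : q ∣ n) (h2 : n ∣ m)
    (h3 : ¬ q * q ∣ m) : q ^ n.factorization q = q := by
  have hn : n ≠ 0 := by rintro rfl; exact h3 (by rw [zero_dvd_iff.1 h2]; exact dvd_zero _)
  have a := (hq.dvd_iff_one_le_factorization hn).1 h1
  have b : ¬ 2 ≤ n.factorization q := fun h =>
    h3 ((sq q ▸ (hq.pow_dvd_iff_le_factorization hn).2 h).trans h2)
  rw [show n.factorization q = 1 by omega, pow_one]

theorem sq_dvd_cent {p : ℕ} (hp : p.Prime) (h : p ^ 2 ∣ Nat.card G) {g : G} (hg : orderOf g = p) :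
    p ^ 2 ∣ Nat.card (centralizer ({g} : Set G)) := by
  have := Fact.mk hp
  obtain ⟨K, hK, h1⟩ := Sylow.exists_subgroup_card_pow_succ (n := 1) h (H := zpowers g)
    (by rw [Nat.card_zpowers, hg, pow_one])
  have := IsPGroup.isMulCommutative_of_card_eq_prime_sq hK
  refine hK ▸ card_dvd_of_le fun k hk => mem_centralizer_singleton_iff.2 ?_
  exact congrArg Subtype.val (this.1.1 ⟨k, hk⟩ ⟨g, h1 (mem_zpowers g)⟩)

theorem norm_le_norm_cent (x : G) : normalizer ((zpowers x : Subgroup G) : Set G) ≤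
    normalizer ((centralizer {x} : Subgroup G) : Set G) := fun g hg =>
  mem_normalizer_fintype fun c hc => by
    obtain ⟨i, hi⟩ := (Small.mem_normalizer_zpowers_iff x _).1 (inv_mem hg)
    have h := (Commute.zpow_right (mem_centralizer_singleton_iff.1 hc) i).eq
    simp only at hi
    rw [hi] at h
    refine mem_centralizer_singleton_iff.2 ?_
    calc _ = g * (c * (g⁻¹ * x * g⁻¹⁻¹)) * g⁻¹ := by group
      _ = _ := by rw [h]; group

omit [Finite G] in
theorem cent_le_norm (x : G) : centralizer {x} ≤ normalizer ((zpowers x : Subgroup G) : Set G) := by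
  rw [← Small.centralizer_zpowers]; exact centralizer_le_normalizer _

/-- The `Z*`-theorem in the centraliser of an element of odd order. -/
theorem exists_core {x z : G} (hx : Odd (orderOf x)) (hz : orderOf z = 2)
    (hzx : z ∈ centralizer ({x} : Set G))
    (hi : ∀ g ∈ centralizer ({x} : Set G), Commute z (g * z * g⁻¹) → g * z * g⁻¹ = z) :
    ∃ O ≤ centralizer ({x} : Set G), Odd (Nat.card O) ∧ x ∈ O ∧
      normalizer ((zpowers x : Subgroup G) : Set G) ≤ normalizer (O : Set G) ∧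
      Nat.card (centralizer ({x} : Set G)) * Nat.card (centralizer {z} ⊓ O : Subgroup G) =
        Nat.card (centralizer {z} ⊓ centralizer {x} : Subgroup G) * Nat.card O := by
  set Y := centralizer ({x} : Set G) with hY
  have h1 := Inv.ZStar.centralizer_sup_oddCore_of_isolated (u := (⟨z, hzx⟩ : Y))
    ⟨by rw [← hz]; exact orderOf_mk z hzx, fun g hg => Subtype.ext (hi g g.2 (congrArg Subtype.val hg.eq))⟩
  have hN : normalizer ((zpowers x : Subgroup G) : Set G) ≤
      normalizer (((pPrimeCore 2 Y).map Y.subtype : Subgroup G) : Set G) := by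
    exact (norm_le_norm_cent x).trans (Grp.normalizer_le_normalizer_map_of_characteristic Y _)
  have hYN := cent_le_norm x
  have hxY : x ∈ Y := mem_centralizer_singleton_iff.2 rfl
  refine ⟨_, map_subtype_le _, Nat.coprime_two_right.1 (Grp.map_pPrimeCore_coprime 2 Y.subtype),
    Grp.le_map_pPrimeCore (zpowers_le.2 hxY) hYN (by
      rw [Nat.card_zpowers]; exact Nat.coprime_two_right.2 hx) (mem_zpowers x), hN, ?_⟩
  have h2 := Grp.card_sup_mul_card_inf_of_le_normalizer (H := centralizer {z} ⊓ Y)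
    (inf_le_right.trans (hYN.trans hN))
  rw [← h2, inf_assoc, inf_eq_right.2 (map_subtype_le _)]
  congr 3
  refine le_antisymm (fun g hg => ?_) (sup_le inf_le_right (map_subtype_le _))
  have h3 : (⟨g, hg⟩ : Y) ∈ centralizer {(⟨z, hzx⟩ : Y)} ⊔ oddCore Y := h1 ▸ mem_top _
  have h4 := mem_map_of_mem Y.subtype h3
  rw [Subgroup.map_sup] at h4
  refine (sup_le_sup_right ?_ _ : _ ≤ (_ : Subgroup G)) h4
  rintro _ ⟨c, hc, rfl⟩
  exact ⟨mem_centralizer_singleton_iff.2 (congrArg Subtype.val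
    (mem_centralizer_singleton_iff.1 hc)), c.2⟩

/-- Burnside's theorem for a Sylow subgroup of prime order of a subgroup. -/
theorem exists_compl {p : ℕ} (hp : p.Prime) {D : Subgroup G} {x : G} (hx : orderOf x = p)
    (hxD : x ∈ D) (h2 : ¬ p * p ∣ Nat.card D)
    (hN : ∀ n ∈ D, n * x * n⁻¹ ∈ zpowers x → n * x = x * n) :
    ∃ R ≤ D, x ∈ normalizer (R : Set G) ∧ Nat.card R * p = Nat.card D := by
  have := Fact.mk hp
  have hx' : orderOf (⟨x, hxD⟩ : D) = p := (orderOf_mk x hxD).trans hx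
  obtain ⟨m, hm⟩ : p ∣ Nat.card D := hx' ▸ orderOf_dvd_natCard _
  obtain ⟨P, hP⟩ := Small.exists_sylow_eq_zpowers hm
    (fun h => h2 (hm ▸ Nat.mul_dvd_mul_left p h)) hx'
  have h1 : normalizer ((P : Subgroup D) : Set D) ≤ centralizer ((P : Subgroup D) : Set D) := by
    rw [hP, Small.centralizer_zpowers]
    intro n hn
    obtain ⟨i, hi⟩ := (Small.mem_normalizer_zpowers_iff _ n).1 hn
    exact mem_centralizer_singleton_iff.2 (Subtype.ext (hN n n.2 ⟨i, congrArg Subtype.val hi⟩))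
  have h3 := (MonoidHom.ker_transferSylow_isComplement' P h1).card_mul_card
  refine ⟨_, map_subtype_le (MonoidHom.transferSylow P h1).ker, ?_, ?_⟩
  · exact le_normalizer_map _ ⟨⟨x, hxD⟩, by rw [normalizer_eq_top]; trivial, rfl⟩
  · rw [card_subtype, ← h3, show Nat.card P = p by rw [hP, Nat.card_zpowers, hx']]

/-- Counting pairs of conjugate involutions with product in the centraliser of `y`. -/
theorem real_bound {p m e : ℕ} (hp : p.Prime) {y i : G} (hy : orderOf y = p) (hm : ¬ p ∣ m)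
    (hC : Nat.card (centralizer ({y} : Set G)) = p * m)
    (hN : Nat.card (normalizer ((zpowers y : Subgroup G) : Set G)) = e * (p * m))
    (hi : i * i = 1) (hiN : i ∈ normalizer ((zpowers y : Subgroup G) : Set G))
    (hc : centralizer {i} ⊓ centralizer {y} = (⊥ : Subgroup G)) :
    (p - 1) * m * Nat.card (centralizer ({i} : Set G)) ^ 2 ≤ e * Nat.card G := by
  classical
  have := Fact.mk hp
  set C := centralizer ({y} : Set G)
  set N := normalizer ((zpowers y : Subgroup G) : Set G)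
  have hCN : C ≤ N := cent_le_norm y
  have hNC : N ≤ normalizer (C : Set G) := norm_le_norm_cent y
  have hii : i⁻¹ = i := inv_eq_of_mul_eq_one_right hi
  have hyC : y ∈ C := mem_centralizer_singleton_iff.2 rfl
  have hm0 : 0 < m := Nat.pos_of_ne_zero (by rintro rfl; simp at hm)
  have h1 : ∀ u ∈ C, IsConj i (i * u) := fun u hu => by
    have hf : Function.Injective (fun c : C => (⟨i * c * i⁻¹ * (c : G)⁻¹,
        mul_mem ((mem_normalizer_iff.1 (hNC hiN) _).1 c.2) (inv_mem c.2)⟩ : C)) := fun a b h => by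
      have h2 : i * a * i⁻¹ * (a : G)⁻¹ = i * b * i⁻¹ * (b : G)⁻¹ := congrArg Subtype.val h
      have h3 : (b : G)⁻¹ * a ∈ centralizer {i} ⊓ C := ⟨mem_centralizer_singleton_iff.2 (by
        calc _ = i * (b : G)⁻¹ * i⁻¹ * (i * b * i⁻¹ * (b : G)⁻¹) * a * i := by group
          _ = _ := by rw [← h2]; group), C.mul_mem (C.inv_mem b.2) a.2⟩
      rw [hc, mem_bot, inv_mul_eq_one] at h3
      exact Subtype.ext h3.symm
    obtain ⟨c, hc⟩ := Finite.surjective_of_injective hf ⟨u, hu⟩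
    exact isConj_iff.2 ⟨c, by rw [← show i * c * i⁻¹ * (c : G)⁻¹ = u from congrArg Subtype.val hc,
      hii, mul_assoc i, mul_assoc i, ← mul_assoc i i, hi, one_mul]⟩
  have h2 : ∀ u ∈ C, u ^ m ∈ zpowers y := fun u hu => by
    have := normal_subgroupOf_of_le_normalizer hCN
    have h3 := Grp.card_mul_relIndex (zpowers_le.2 hyC)
    rw [hC, Nat.card_zpowers, hy] at h3
    exact Nat.eq_of_mul_eq_mul_left hp.pos h3 ▸
      pow_index_mem (H := (zpowers y).subgroupOf C) ⟨u, hu⟩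
  have h3 : Nat.card {u // u ∈ C ∧ u ^ m = 1} ≤ m := by
    refine Nat.le_of_mul_le_mul_left ?_ hp.pos
    rw [← hC, ← hy, ← Nat.card_zpowers, ← Nat.card_prod]
    refine Nat.card_le_card_of_injective (fun a => ⟨a.1 * a.2, mul_mem (zpowers_le.2 hyC a.1.2) a.2.2.1⟩)
      fun a b h => ?_
    have h4 : (a.1 : G) * a.2 = b.1 * b.2 := congrArg Subtype.val h
    have h5 : ∀ a : zpowers y × {u // u ∈ C ∧ u ^ m = 1}, ((a.1 : G) * a.2) ^ m = a.1 ^ m := by
      rintro ⟨⟨_, k, rfl⟩, w, h5, h6⟩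
      change (y ^ k * w) ^ m = (y ^ k) ^ m
      rw [(Commute.zpow_left (mem_centralizer_singleton_iff.1 h5).symm k).mul_pow, h6, mul_one]
    have h6 : a.1 = b.1 := (Nat.Coprime.pow_left_bijective (G := zpowers y) (n := m) (by
      rw [Nat.card_zpowers, hy]; exact (Nat.Prime.coprime_iff_not_dvd hp).2 hm)).1
      (Subtype.ext ((h5 a).symm.trans (h4 ▸ h5 b)))
    exact Prod.ext h6 (Subtype.ext (mul_left_cancel (h6 ▸ h4)))
  have h4 : (p - 1) * m ≤ Nat.card {u // u ∈ C ∧ u ^ m ≠ 1} := by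
    have h5 := Set.ncard_inter_add_ncard_sdiff_eq_ncard (C : Set G) {u | u ^ m = 1}
    rw [← Nat.card_coe_set_eq, ← Nat.card_coe_set_eq, ← Nat.card_coe_set_eq] at h5
    change Nat.card {u // u ∈ C ∧ u ^ m = 1} + Nat.card {u // u ∈ C ∧ u ^ m ≠ 1} = Nat.card C at h5
    rw [Nat.sub_mul, ← hC]; omega
  have h5 : Nat.card (centralizer {i} ⊓ N : Subgroup G) ≤ e := by
    have h6 := Grp.card_mul_card_le_of_le (H := centralizer {i} ⊓ N) inf_le_right hCN
    rw [inf_assoc, inf_eq_right.2 hCN, hc, card_bot, one_mul, hN, hC] at h6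
    exact Nat.le_of_mul_le_mul_right h6 (Nat.mul_pos hp.pos hm0)
  let F : G × {u // u ∈ C ∧ u ^ m ≠ 1} → {j // IsConj i j} × {j // IsConj i j} := fun a =>
    (⟨a.1 * i * a.1⁻¹, isConj_iff.2 ⟨_, rfl⟩⟩,
      ⟨a.1 * (i * a.2) * a.1⁻¹, (h1 _ a.2.2.1).trans (isConj_iff.2 ⟨_, rfl⟩)⟩)
  have h6 : ∀ a b, F a = F b → b.1⁻¹ * a.1 ∈ centralizer {i} ⊓ N := fun a b h => by
    have e1 : a.1 * i * a.1⁻¹ = b.1 * i * b.1⁻¹ := congrArg (fun c => c.1.1) h
    have e2 : a.1 * (i * a.2) * a.1⁻¹ = b.1 * (i * b.2) * b.1⁻¹ := congrArg (fun c => c.2.1) h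
    have e3 : b.1⁻¹ * a.1 * a.2 * (b.1⁻¹ * a.1)⁻¹ = b.2 := by
      calc _ = b.1⁻¹ * ((a.1 * i * a.1⁻¹)⁻¹ * (a.1 * (i * a.2) * a.1⁻¹)) * b.1 := by group
        _ = _ := by rw [e1, e2]; group
    refine ⟨mem_centralizer_singleton_iff.2 (by
      calc _ = b.1⁻¹ * (a.1 * i * a.1⁻¹) * a.1 := by group
        _ = _ := by rw [e1]; group), (Small.mem_normalizer_zpowers_iff _ _).2 ?_⟩
    exact Grp.SelfCent.mem_of_mem_zp hy (H := (zpowers y).comap (MulAut.conj _).toMonoidHom)
      (h2 _ a.2.2.1) a.2.2.2 (by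
        change _ * _ * _ ∈ zpowers y
        rw [← conj_pow, e3]; exact h2 _ b.2.2.1)
  have h7 := Nat.card_le_card_of_injective (fun a => (F a,
      (⟨_, h6 a (Function.surjInv (f := Set.rangeFactorization F) Set.rangeFactorization_surjective
        ⟨F a, a, rfl⟩) (congrArg Subtype.val (Function.surjInv_eq (f := Set.rangeFactorization F)
        Set.rangeFactorization_surjective ⟨F a, a, rfl⟩)).symm⟩ : (centralizer {i} ⊓ N : Subgroup G))))
    fun a b h => by
      obtain ⟨e1, e2⟩ := Prod.ext_iff.1 h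
      have e3 := congrArg Subtype.val e2
      simp only at e1 e3
      simp only [e1, mul_right_inj] at e3
      have e4 : a.1 * (i * a.2) * a.1⁻¹ = b.1 * (i * b.2) * b.1⁻¹ := congrArg (fun c => c.2.1) e1
      rw [e3] at e4
      exact Prod.ext e3 (Subtype.ext (by simpa using e4))
  rw [Nat.card_prod, Nat.card_prod, Nat.card_prod] at h7
  have h8 := Small.card_isConj_mul_card_centralizer i
  refine Nat.le_of_mul_le_mul_left ?_ (Nat.card_pos (α := G))
  calc _ = Nat.card G * ((p - 1) * m) * Nat.card (centralizer ({i} : Set G)) ^ 2 := by ring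
    _ ≤ _ := Nat.mul_le_mul_right _ ((Nat.mul_le_mul_left _ h4).trans
      (h7.trans (Nat.mul_le_mul_left _ h5)))
    _ = _ := by rw [← h8]; ring

theorem exists_conj_eq {x γ u : G} (hx : orderOf x = 11) (h : γ * x * γ⁻¹ = x ^ 8)
    (hu : u ∈ zpowers x) (h1 : u ≠ 1) : ∃ j < 10, γ ^ j * x * (γ ^ j)⁻¹ = u := by
  classical
  have h2 : ∀ j : ℕ, γ ^ j * x * (γ ^ j)⁻¹ = x ^ 8 ^ j := fun j => by
    induction j with
    | zero => simp
    | succ j ih => rw [pow_succ', pow_succ', pow_mul, ← h, conj_pow, ← ih]; group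
  obtain ⟨i, hi, rfl⟩ := Finset.mem_image.1 (mem_zpowers_iff_mem_range_orderOf.1 hu)
  obtain ⟨j, hj, e⟩ := (by decide : ∀ i < 11, i ≠ 0 → ∃ j < 10, 8 ^ j % 11 = i) i
    (hx ▸ Finset.mem_range.1 hi) (by rintro rfl; exact h1 (pow_zero x))
  exact ⟨j, hj, by rw [h2, ← e, ← hx, pow_mod_orderOf]⟩

theorem norm_dec {x γ n : G} (hx : orderOf x = 11) (h : γ * x * γ⁻¹ = x ^ 8)
    (hn : n * x * n⁻¹ ∈ zpowers x) : ∃ j < 10, ∃ c ∈ centralizer ({x} : Set G), n = γ ^ j * c := by
  obtain ⟨j, hj, e⟩ := exists_conj_eq hx h hn (by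
    intro e; rw [conj_eq_one_iff] at e; rw [e] at hx; simp at hx)
  refine ⟨j, hj, (γ ^ j)⁻¹ * n, mem_centralizer_singleton_iff.2 ?_, by group⟩
  calc _ = (γ ^ j)⁻¹ * (n * x * n⁻¹) * n := by group
    _ = _ := by rw [← e]; group

theorem card_norm {x γ : G} (hx : orderOf x = 11) (h : γ * x * γ⁻¹ = x ^ 8) :
    Nat.card (normalizer ((zpowers x : Subgroup G) : Set G)) =
      10 * Nat.card (centralizer ({x} : Set G)) := by
  rw [Small.card_normalizer_zpowers, show 10 = Nat.card (zpowers x) - 1 by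
    rw [Nat.card_zpowers, hx], ← Small.card_ne_one_mem]
  congr 2
  refine congrArg (fun s : Set G => ↥s) (Set.ext fun u => and_congr_right fun hu =>
    ⟨fun e h1 => ?_, fun h1 => ?_⟩)
  · rw [h1, isConj_one_left] at e; rw [e] at hx; simp at hx
  · obtain ⟨j, -, e⟩ := exists_conj_eq hx h hu h1
    exact isConj_iff.2 ⟨_, e⟩

omit [Finite G] in
/-- The powers of an element of order ten. -/
theorem ten_cases {γ t : G} (h10 : γ ^ 10 = 1) (ht : t * t = 1) (hc : Commute γ t) {j e : ℕ}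
    (hj : j < 10) (he : e < 2) {D : Subgroup G} (h : γ ^ j * t ^ e ∈ D) :
    (j = 0 ∧ e = 0) ∨ t ∈ D ∨ γ ^ 2 ∈ D ∨ γ ^ 5 ∈ D ∨ γ ^ 5 * t ∈ D := by
  rcases (by decide : ∀ j < 10, j = 0 ∨ j = 5 ∨ ∃ k < 5, j * (2 * k) % 10 = 2) j hj with
    rfl | rfl | ⟨k, -, hk⟩
  · interval_cases e <;> simp_all
  · interval_cases e <;> simp_all
  · have := D.pow_mem h (2 * k)
    rw [(hc.pow_pow j e).mul_pow, ← pow_mul t, mul_left_comm, pow_mul t, pow_two t, ht, one_pow,
      mul_one, ← pow_mul, pow_eq_pow_mod _ h10, hk] at this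
    exact Or.inr (Or.inr (Or.inl this))

omit [Finite G] in
/-- Extensions with the same action are isomorphic. -/
theorem ext_equiv {B : Type*} [Group B] {Γ : Subgroup (G × B)} {t : G} {n : B}
    (h : (t, n) ∈ normalizer (Γ : Set (G × B))) (h1 : ∀ b, (1, b) ∈ Γ → b = 1)
    (h2 : ∀ a, (a, 1) ∈ Γ → a = 1) (h3 : centralizer (Γ.map (MonoidHom.fst G B) : Set G) = ⊥)
    (h4 : centralizer (Γ.map (MonoidHom.snd G B) : Set B) = ⊥) :
    Nonempty (↥(Γ.map (MonoidHom.fst G B) ⊔ zpowers t) ≃* ↥(Γ.map (MonoidHom.snd G B) ⊔ zpowers n)) := by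
  have hN : Γ ⊔ zpowers (t, n) ≤ normalizer (Γ : Set (G × B)) :=
    sup_le le_normalizer (zpowers_le.2 h)
  have e1 : Function.Injective ((MonoidHom.fst G B).subgroupMap (Γ ⊔ zpowers (t, n))) := by
    rw [injective_iff_map_eq_one]
    rintro ⟨⟨a, b⟩, hab⟩ e
    obtain rfl : a = 1 := congrArg Subtype.val e
    have : b ∈ centralizer (Γ.map (MonoidHom.snd G B) : Set B) := by
      rintro _ ⟨⟨c, d⟩, hcd, rfl⟩
      have := h1 (d⁻¹ * (b * d * b⁻¹)) (by
        simpa using Γ.mul_mem (Γ.inv_mem hcd) ((mem_normalizer_iff.1 (hN hab) _).1 hcd))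
      rw [inv_mul_eq_one, eq_mul_inv_iff_mul_eq] at this
      exact this
    rw [h4, mem_bot] at this
    subst this; rfl
  have e2 : Function.Injective ((MonoidHom.snd G B).subgroupMap (Γ ⊔ zpowers (t, n))) := by
    rw [injective_iff_map_eq_one]
    rintro ⟨⟨a, b⟩, hab⟩ e
    obtain rfl : b = 1 := congrArg Subtype.val e
    have : a ∈ centralizer (Γ.map (MonoidHom.fst G B) : Set G) := by
      rintro _ ⟨⟨c, d⟩, hcd, rfl⟩
      have := h2 (c⁻¹ * (a * c * a⁻¹)) (by
        simpa using Γ.mul_mem (Γ.inv_mem hcd) ((mem_normalizer_iff.1 (hN hab) _).1 hcd))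
      rw [inv_mul_eq_one, eq_mul_inv_iff_mul_eq] at this
      exact this
    rw [h3, mem_bot] at this
    subst this; rfl
  exact ⟨(MulEquiv.subgroupCongr (by rw [Subgroup.map_sup, MonoidHom.map_zpowers]; rfl)).trans
    (((MulEquiv.ofBijective _ ⟨e1, MonoidHom.subgroupMap_surjective _ _⟩).symm.trans
      (MulEquiv.ofBijective _ ⟨e2, MonoidHom.subgroupMap_surjective _ _⟩)).trans
      (MulEquiv.subgroupCongr (by rw [Subgroup.map_sup, MonoidHom.map_zpowers]; rfl)))⟩

end Cfsg.Agent.J4.L11
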