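import Cfsg.Agent.J4.L11Grp
import Cfsg.Agent.J4.AutM22

/-! The element `x ↦ 2 x` of `M24`, and `PGL₂(23)` on the projective line. -/

set_option autoImplicit false

namespace Cfsg.Agent.J4.L11

open Cfsg Cfsg.Agent.Spor Cfsg.Agent.Spor.M24C Subgroup

/-- `f σ`, of order ten. -/
def pG : ℕ := 23710197571682727821368729684921815
/-- `x ↦ x + 1`. -/
def pT : ℕ := 956302485175575353788796878166559809
/-- `x ↦ -x`. -/
def pN : ℕ := 956765793662171983829532039519557312

theorem okG : okM pG = true := by decide +kernel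
theorem okT : okM pT = true := by decide +kernel
theorem okN : okP pN = true := by decide +kernel

theorem ordX : orderOf (mc pX) = 11 := orderOf_mc_prime (by norm_num) okM_pX (by decide +kernel)
theorem ordT : orderOf (mc pT) = 23 := orderOf_mc_prime (by norm_num) okT (by decide +kernel)

theorem centX : centralizer {mc pX} = zpowers (mc pX) := by
  have ok : okM 854553900599363197528029754024922177 = true := by decide +kernel
  have ok' : okM 275698410412105553738316096494666760 = true := by decide +kernel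
  have h : Nat.card (centralizer {mc pX}) = 11 := by
    rw [← chainM.card_cent ok 0 (by norm_num) (N := 11) (by decide +kernel), fixK_zero, top_inf_eq]
    refine Inv.Count.card_centralizer_of_isConj (isConj_iff.2 ⟨mc 275698410412105553738316096494666760, ?_⟩)
    rw [eq_iff_code, code_conj', code_mc ok, code_mc ok', code_mc okM_pX]; decide +kernel
  exact (eq_of_le_of_card_ge (zpowers_le.2 (mem_centralizer_singleton_iff.2 rfl))
    (by rw [h, Nat.card_zpowers, ordX])).symm

theorem conjGX : mc pG * mc pX * (mc pG)⁻¹ = mc pX ^ 8 := by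
  rw [eq_iff_code, code_conj', code_pow', code_mc okG, code_mc okM_pX]; decide +kernel

theorem conjXT : mc pX * mc pT * (mc pX)⁻¹ = mc pT ^ 2 := by
  rw [eq_iff_code, code_conj', code_pow', code_mc okT, code_mc okM_pX]; decide +kernel

theorem G_ten : mc pG ^ 10 = 1 := by
  rw [eq_iff_code, code_pow', code_mc okG, code_one']; decide +kernel

theorem G_five : mc pG ^ 5 = mc pS := by
  rw [eq_iff_code, code_pow', code_mc okG, code_mc okM_pS]; decide +kernel

theorem ordG2 : orderOf (mc pG ^ 2) = 5 := by
  have := Fact.mk Nat.prime_five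
  refine orderOf_eq_prime (by rw [← pow_mul, G_ten]) ?_
  rw [Ne, eq_iff_code, code_pow', code_mc okG, code_one']; decide +kernel

theorem ordS : orderOf (mc pS) = 2 := orderOf_mc_prime (by norm_num) okM_pS (by decide +kernel)

theorem ST_cube : (mc pS * mc pT) ^ 3 = 1 := by
  rw [eq_iff_code, code_pow', code_mul', code_mc okT, code_mc okM_pS, code_one']; decide +kernel

theorem normX {n : M24} (hn : n * mc pX * n⁻¹ ∈ zpowers (mc pX)) :
    ∃ j < 10, ∃ i < 11, n = mc pG ^ j * mc pX ^ i := by
  classical
  obtain ⟨j, hj, c, hc, rfl⟩ := norm_dec ordX conjGX hn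
  obtain ⟨i, hi, rfl⟩ := Finset.mem_image.1 (mem_zpowers_iff_mem_range_orderOf.1 (centX ▸ hc))
  exact ⟨j, hj, i, ordX ▸ Finset.mem_range.1 hi, rfl⟩

theorem eq_S {n : M24} (hn : n * mc pX * n⁻¹ ∈ zpowers (mc pX)) (h : (n * (mc pT)⁻¹) ^ 3 = 1) :
    n = mc pS := by
  obtain ⟨j, hj, i, hi, rfl⟩ := normX hn
  rw [eq_iff_code, code_pow', code_mul', code_mul', code_pow', code_pow', coe_inv, code_inv,
    code_mc okG, code_mc okM_pX, code_mc okT, code_one'] at h
  rw [eq_iff_code, code_mul', code_pow', code_pow', code_mc okG, code_mc okM_pX, code_mc okM_pS]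
  have key : Comp.allLT 10 (fun j => Comp.force (powC pG j) fun a => Comp.allLT 11 fun i =>
      Comp.force (powC pX i) fun b => Comp.force (mulC a b) fun c => Comp.force (invC pT) fun t =>
      Comp.force (mulC c t) fun d => Comp.or' (Comp.not' (Nat.beq (powC d 3) oneC))
        (Nat.beq c pS)) = true := by decide +kernel
  simp only [Comp.allLT_iff, Comp.force_eq, Comp.or'_eq_true, Comp.not'_eq_true,
    Comp.beq_iff] at key
  exact (key j hj i hi).resolve_left (not_not.2 h)

/-- A subgroup in which `⟨x⟩` is self-normalising is small. -/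
theorem card_le {D : Subgroup M24} (hX : mc pX ∈ D) (h2 : mc pG ^ 2 ∉ D) (h5 : mc pG ^ 5 ∉ D) :
    Nat.card D ≤ 253 := by
  have := Fact.mk (show Nat.Prime 11 by norm_num)
  have hD : Nat.card D ∣ 244823040 := card_M24 ▸ card_subgroup_dvd_card D
  obtain ⟨R, -, hR, hc⟩ := exists_compl (by norm_num) ordX hX (fun h => by
    have := h.trans hD; omega) (fun n hn h => by
    obtain ⟨j, hj, i, -, rfl⟩ := normX h
    have h3 : mc pG ^ j ∈ D := by simpa using D.mul_mem hn (D.inv_mem (D.pow_mem hX i))
    rcases (by decide : ∀ j < 10, j = 0 ∨ j = 5 ∨ ∃ k < 5, j * (2 * k) % 10 = 2) j hj with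
      rfl | rfl | ⟨k, -, hk⟩
    · rw [pow_zero, one_mul]; exact (Commute.pow_self _ i).eq
    · exact absurd h3 h5
    · have := D.pow_mem h3 (2 * k)
      rw [← pow_mul, pow_eq_pow_mod _ G_ten, hk] at this
      exact absurd this h2)
  have h6 : Nat.card R ∣ 2 ^ 10 * (3 ^ 3 * (5 ^ 1 * (7 ^ 1 * 23))) :=
    Nat.dvd_of_mul_dvd_mul_right (show 0 < 11 by norm_num) (hc ▸ hD)
  have h11 : ¬ 11 ∣ Nat.card R := fun h => by have := h.trans h6; omega
  have key : ∀ q a, q.Prime → ¬ q ^ (a + 1) ∣ Nat.card R → q ∣ Nat.card R → ∃ S : Subgroup M24,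
      mc pX ∈ normalizer (S : Set M24) ∧ ∃ k ≤ a, 0 < k ∧ Nat.card S = q ^ k ∧ q ^ k % 11 = 1 := by
    intro q a hq h7 h8
    obtain ⟨S, hS, h9, h10⟩ := exists_inv_sylow (zpowers_le.2 hR) (by
      rw [Nat.card_zpowers, ordX]; exact (Nat.Prime.coprime_iff_not_dvd (by norm_num)).2 h11)
      inferInstance hq
    refine ⟨S, h10 (mem_zpowers _), _, ?_,
      (hq.dvd_iff_one_le_factorization Nat.card_pos.ne').1 h8, h9, h9 ▸ ?_⟩
    · by_contra h
      exact h7 ((hq.pow_dvd_iff_le_factorization Nat.card_pos.ne').2 (by omega))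
    · exact Grp.SelfCent.card_mod ordX centX (h10 (mem_zpowers _))
        fun h => h11 (h.trans (card_dvd_of_le hS))
  have c2 : ¬ 2 ∣ Nat.card R := fun h => by
    obtain ⟨S, h7, k, hk, h8, h9, h10⟩ := key 2 10 (by norm_num)
      (fun h => by have := h.trans h6; omega) h
    obtain rfl : k = 10 := by interval_cases k <;> omega
    have a1 := Grp.card_mul_card_le_of_le (H := S) (K := MulAction.stabilizer M24 (none : GolayPt))
      (L := ⊤) le_top le_top
    have a2 : Nat.card (S ⊓ MulAction.stabilizer M24 (none : GolayPt) : Subgroup M24) ∣ 2 ^ 7 := by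
      have := Nat.dvd_gcd (h9 ▸ card_dvd_of_le (inf_le_left (a := S)))
        (card_stabilizer_pt none ▸ card_dvd_of_le (inf_le_right (a := S)))
      exact this
    have a3 := Grp.SelfCent.card_mod ordX centX
      (S := S ⊓ MulAction.stabilizer M24 (none : GolayPt))
      (inf_normalizer_le_normalizer_inf ⟨h7, le_normalizer (mem_M22'.1 pX_mem).1⟩)
      (fun h => by have := h.trans a2; omega)
    obtain ⟨j, hj, e⟩ := (Nat.dvd_prime_pow Nat.prime_two).1 a2
    rw [h9, card_stabilizer_pt, card_top_M24, e] at a1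
    rw [e] at a3
    interval_cases j <;> omega
  have c3 : ∀ q a, q.Prime → (∀ k ≤ a, 0 < k → q ^ k % 11 ≠ 1) →
      ¬ q ^ (a + 1) ∣ 2 ^ 10 * (3 ^ 3 * (5 ^ 1 * (7 ^ 1 * 23))) → (Nat.card R).Coprime (q ^ a) :=
    fun q a hq h7 h8 => Nat.Coprime.pow_right _ (Nat.Coprime.symm
      ((Nat.Prime.coprime_iff_not_dvd hq).2 fun h => by
        obtain ⟨S, -, k, hk, h9, -, h10⟩ := key q a hq (fun h => h8 (h.trans h6)) h
        exact h7 k hk h9 h10))
  have h7 := (c3 7 1 (by norm_num) (by decide) (by decide)).dvd_of_dvd_mul_left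
    ((c3 5 1 (by norm_num) (by decide) (by decide)).dvd_of_dvd_mul_left
    ((c3 3 3 (by norm_num) (by decide) (by decide)).dvd_of_dvd_mul_left
    ((Nat.Coprime.pow_right _ ((Nat.Prime.coprime_iff_not_dvd Nat.prime_two).2 c2).symm).dvd_of_dvd_mul_left h6)))
  have := Nat.le_of_dvd (by norm_num) h7
  omega

/-! ### The projective line -/

theorem pc_none {c : ℕ} (h : okP c = true) : pc c none = pt (dg c 23) := by
  rw [← pt_ix (pc c none), ix_pc_apply h]; rfl

theorem pc_some {c : ℕ} (h : okP c = true) (k : ZMod 23) : pc c (some k) = pt (dg c k.val) := by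
  rw [← pt_ix (pc c (some k)), ix_pc_apply h]; rfl

/-- The maps `x + 1`, `2 x`, `-1 / x` and `-x`. -/
structure Mob (T X S N : Equiv.Perm GolayPt) : Prop where
  T_none : T none = none
  X_none : X none = none
  N_none : N none = none
  S_none : S none = some 0
  T_some : ∀ k, T (some k) = some (k + 1)
  X_some : ∀ k, X (some k) = some (2 * k)
  N_some : ∀ k, N (some k) = some (-k)
  S_some : ∀ k, S (some k) = if k = 0 then none else some (-k ^ 21)

theorem mob : Mob (pc pT) (pc pX) (pc pS) (pc pN) := by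
  refine ⟨?_, ?_, ?_, ?_, fun k => ?_, fun k => ?_, fun k => ?_, fun k => ?_⟩ <;>
    first | rw [pc_none (by decide +kernel)] | rw [pc_some (by decide +kernel)]; revert k
  all_goals decide +kernel

theorem two_ne : (2 : ZMod 23) ≠ 0 := by decide

theorem prim_root : ∀ u : ZMod 23, u ≠ 0 → ∃ n < 22, (-2) ^ n = u := by decide +kernel

variable {T X S N : Equiv.Perm GolayPt} (h : Mob T X S N)
include h

theorem Mob.cent {σ : Equiv.Perm GolayPt} (h1 : T * σ = σ * T) (h2 : X * σ = σ * X) :
    σ = 1 := by
  have a1 : σ none = none := by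
    have := congrArg (· none) h1
    simp only [Equiv.Perm.mul_apply, h.T_none] at this
    cases e : σ none with
    | none => rfl
    | some k => rw [e, h.T_some] at this; exact absurd (by simpa using this) (by decide : (1 : ZMod 23) ≠ 0)
  have a2 : σ (some 0) = some 0 := by
    have := congrArg (· (some 0)) h2
    simp only [Equiv.Perm.mul_apply, h.X_some, mul_zero] at this
    cases e : σ (some 0) with
    | none => exact absurd (σ.injective (e.trans a1.symm)) (by simp)
    | some k =>
      rw [e, h.X_some, two_mul] at this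
      simpa using this
  have a3 : ∀ n : ℕ, σ (some n) = some (n : ZMod 23) := fun n => by
    induction n with
    | zero => simpa using a2
    | succ n ih =>
      have := congrArg (· (some n)) h1
      simp only [Equiv.Perm.mul_apply, h.T_some, ih] at this
      simpa using this.symm
  ext1 p
  cases p with
  | none => exact a1
  | some k => simpa using a3 k.val

/-- The group generated by `x + 1`, `2 x`, `-1 / x` and `-x`. -/
theorem Mob.equiv_PGL {R : Subgroup (Equiv.Perm GolayPt)}
    (hR : R = closure {T, X, S} ⊔ zpowers (N)) :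
    Nonempty (R ≃* GL (Fin 2) (ZMod 23) ⧸ center (GL (Fin 2) (ZMod 23))) := by
  have := Fact.mk (show Nat.Prime 23 by norm_num)
  let ψ : GL (Fin 2) (ZMod 23) →* Equiv.Perm GolayPt :=
    MulAction.toPermHom (GL (Fin 2) (ZMod 23)) (OnePoint (ZMod 23))
  have e1 : ∀ g, ψ g none = if g 1 0 = 0 then none else some (g 0 0 / g 1 0) :=
    fun g => OnePoint.smul_infty_eq_ite g
  have e2 : ∀ g k, ψ g (some k) = if g 1 0 * k + g 1 1 = 0 then none else
      some ((g 0 0 * k + g 0 1) / (g 1 0 * k + g 1 1)) := fun g k => OnePoint.smul_some_eq_ite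
  have hT : T ∈ R := hR ▸ mem_sup_left (subset_closure (by simp))
  have hX : X ∈ R := hR ▸ mem_sup_left (subset_closure (by simp))
  have hS : S ∈ R := hR ▸ mem_sup_left (subset_closure (by simp))
  have hN : N ∈ R := hR ▸ mem_sup_right (mem_zpowers _)
  have aff : ∀ a b : ZMod 23, a ≠ 0 → ∀ σ : Equiv.Perm GolayPt, σ none = none →
      (∀ k, σ (some k) = some (a * k + b)) → σ ∈ ψ.range := fun a b ha σ h1 h2 =>
    ⟨Matrix.GeneralLinearGroup.mkOfDetNeZero !![a, b; 0, 1] (by simpa using ha), by
      ext1 p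
      cases p with
      | none => simp [e1, h1]
      | some k => simp [e2, h2]⟩
  have r1 : R ≤ ψ.range := by
    rw [hR]
    refine sup_le ((closure_le _).2 ?_) (zpowers_le.2 (aff (-1) 0 (by simp) _ h.N_none (by
      simp [h.N_some])))
    rintro _ (rfl | rfl | rfl)
    · exact aff 1 1 (by simp) _ h.T_none (by simp [h.T_some])
    · exact aff 2 0 two_ne _ h.X_none (by simp [h.X_some])
    · refine ⟨Matrix.GeneralLinearGroup.mkOfDetNeZero !![0, -1; 1, 0] (by simp), ?_⟩
      ext1 p
      cases p with
      | none => simp [e1, h.S_none]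
      | some k =>
        by_cases hk : k = 0
        · simp [e2, h.S_some, hk]
        · have := ZMod.pow_card_sub_one_eq_one hk
          simp only [e2, h.S_some, if_neg hk]
          simp only [Matrix.GeneralLinearGroup.mkOfDetNeZero]
          simp [hk, neg_div]
          exact inv_eq_of_mul_eq_one_right (by rw [← this]; ring)
  have t1 : ∀ n : ℕ, (T ^ n) none = none ∧ ∀ k, (T ^ n) (some k) = some (k + n) := fun n => by
    induction n with
    | zero => simp
    | succ n ih => simp [pow_succ', ih.1, ih.2, h.T_none, h.T_some, add_assoc]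
  have t2 : ∀ n : ℕ, ((N * X) ^ n) none = none ∧
      ∀ k, ((N * X) ^ n) (some k) = some ((-2) ^ n * k) := fun n => by
    induction n with
    | zero => simp
    | succ n ih => simp [pow_succ', ih.1, ih.2, h.X_none, h.X_some, h.N_none, h.N_some, mul_assoc]
  have r2 : ∀ g, ψ g none = none → ψ g ∈ R := fun g hg => by
    have h1 : g 1 0 = 0 := by by_contra h0; simp [e1, h0] at hg
    have h2 := g.det_ne_zero
    rw [Matrix.det_fin_two, h1, mul_zero, sub_zero, mul_ne_zero_iff] at h2
    obtain ⟨n, -, hn⟩ := prim_root _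
      (div_ne_zero h2.1 h2.2)
    have : ψ g = T ^ (g 0 1 / g 1 1).val * (N * X) ^ n := by
      ext1 p
      cases p with
      | none => simp [hg, (t1 _).1, (t2 _).1]
      | some k =>
        rw [Equiv.Perm.mul_apply, (t2 _).2, (t1 _).2, e2, hn, h1, zero_mul, zero_add, if_neg h2.2]
        simp [add_div, mul_div_right_comm]
    exact this ▸ mul_mem (pow_mem hT _) (pow_mem (mul_mem hN hX) _)
  have r3 : ψ.range ≤ R := by
    rintro _ ⟨g, rfl⟩
    cases e : ψ g none with
    | none => exact r2 g e
    | some k =>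
      have h1 := mul_mem (pow_mem hT k.val) hS
      obtain ⟨g', hg'⟩ := r1 h1
      have := r2 (g'⁻¹ * g) (by
        rw [map_mul, map_inv, hg', Equiv.Perm.mul_apply, e, Equiv.Perm.inv_eq_iff_eq,
          Equiv.Perm.mul_apply, h.S_none, (t1 _).2]
        simp)
      rw [map_mul, map_inv, hg'] at this
      simpa only [mul_inv_cancel_left] using mul_mem h1 this
  have k1 : ψ.ker = center (GL (Fin 2) (ZMod 23)) := by
    ext g
    rw [Matrix.GeneralLinearGroup.mem_center_iff_val_mem_range_scalar, MonoidHom.mem_ker]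
    constructor
    · intro hg
      have h1 : g 1 0 = 0 := by by_contra h0; simpa [hg, h0] using e1 g
      have h2 := g.det_ne_zero
      rw [Matrix.det_fin_two, h1, mul_zero, sub_zero, mul_ne_zero_iff] at h2
      have h3 : g 0 1 = 0 := by simpa [hg, h1, h2.2, eq_div_iff, eq_comm] using e2 g 0
      have h4 : g 1 1 = g 0 0 := by simpa [hg, h1, h2.2, h3, eq_div_iff] using e2 g 1
      refine ⟨g 0 0, ?_⟩
      ext i j
      fin_cases i <;> fin_cases j <;> simp [h1, h3, h4]
    · rintro ⟨a, ha⟩
      have h2 := g.det_ne_zero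
      have h1 : ∀ i j, g i j = Matrix.scalar (Fin 2) a i j := fun i j => by rw [ha]
      rw [← ha] at h2
      have h3 : a ≠ 0 := by simpa using h2
      ext1 p
      cases p with
      | none => simp [e1, h1]
      | some k => simp [e2, h1, h3]
  exact ⟨(MulEquiv.subgroupCongr (le_antisymm r1 r3)).trans
    ((QuotientGroup.quotientKerEquivRange ψ).symm.trans (QuotientGroup.quotientMulEquivOfEq k1))⟩

end Cfsg.Agent.J4.L11
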